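/-!
Affine coordinates on the sixteen points moved by `rep2A`, and its translations.
-/

set_option autoImplicit false

namespace Cfsg.Agent.H12

/-- Point with affine coordinates `i` (5 bits each). -/
def affPts : Nat := 0xa36559c1e8b2d2618820

/-- Affine coordinates of a point, 16 for a fixed point. -/
def affIdx : Nat := 0x81d8f5b60a4c1d0340a88121018820

/-- The translations sending the origin to the `i`th point. -/
def affTrans : List Nat :=
  [0xbdab49ca307b9ac5a928398a418820,
    0xbae4d8563343a8cb28cf3a4a410c01,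
    0xba5b27d2289baac32ad03aca408062,
    0xb9a954362f83a4c4a9733d8a400443,
    0xb8d13a3e2d93a0c12835380a4b2d26,
    0xb89f06a234aba6c1a812384a45d8c9,
    0xb860f94e35a390c0286d388a449acb,
    0xb8268ac2326b9ec0a85438ca432576,
    0xbd0d61a6220b96c6aa403d4a49c1e8,
    0xbb52b11a2303acca2aa13c8a484d0f,
    0xbc9690da201b8ccaaa823b4a47a270,
    0xbd6c602e211392c929a33d0a443e13,
    0xbcc03b062b4b84c829e63a0a4a3655,
    0xbc022582363386c9a9093bca46d2b2,
    0xbbc4148e26b380c42a6b3c0a49568d,
    0xba06030a295b82c7aa163cca4ac9b4]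

end Cfsg.Agent.H12
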