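import Mathlib

/-!
The cycle inequality for three permutations with product one generating a transitive group.
-/

set_option autoImplicit false
set_option linter.unusedSectionVars false

namespace Cfsg.Agent.H12

/-- The number of orbits of the powers of a permutation. -/
noncomputable def cycleCount {ι : Type*} (g : Equiv.Perm ι) : ℕ :=
  Nat.card (Quotient (Equiv.Perm.SameCycle.setoid g))

section

variable {ι : Type*} [Fintype ι] [DecidableEq ι]

/-- The permutation action on functions. -/
noncomputable def permLin (g : Equiv.Perm ι) : (ι → ℚ) →ₗ[ℚ] (ι → ℚ) :=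
  LinearMap.funLeft ℚ ℚ (g⁻¹ : Equiv.Perm ι)

theorem permLin_mul (g h : Equiv.Perm ι) (v : ι → ℚ) :
    permLin (g * h) v = permLin g (permLin h v) := by
  funext i
  simp [permLin, LinearMap.funLeft, mul_inv_rev]

theorem permLin_one (v : ι → ℚ) : permLin (1 : Equiv.Perm ι) v = v := by
  funext i
  simp [permLin, LinearMap.funLeft]

/-- The commutator space of a permutation. -/
noncomputable def moveSpace (g : Equiv.Perm ι) : Submodule ℚ (ι → ℚ) :=
  LinearMap.range (permLin g - LinearMap.id)

theorem finrank_moveSpace_add (g : Equiv.Perm ι) :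
    Module.finrank ℚ (moveSpace g) + cycleCount g ≤ Fintype.card ι := by
  classical
  let L : (Quotient (Equiv.Perm.SameCycle.setoid g) → ℚ) →ₗ[ℚ] (ι → ℚ) :=
    LinearMap.funLeft ℚ ℚ (Quotient.mk (Equiv.Perm.SameCycle.setoid g))
  have hL : Function.Injective L :=
    LinearMap.funLeft_injective_of_surjective ℚ ℚ _ Quotient.mk_surjective
  have hker : LinearMap.range L ≤ LinearMap.ker (permLin g - LinearMap.id) := by
    rintro _ ⟨f, rfl⟩
    rw [LinearMap.mem_ker, LinearMap.sub_apply, sub_eq_zero]
    funext i
    show f (Quotient.mk _ (g⁻¹ i)) = f (Quotient.mk _ i)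
    congr 1
    exact Quotient.sound ⟨1, by simp⟩
  have h1 := LinearMap.finrank_range_add_finrank_ker (permLin g - LinearMap.id)
  have h2 := Submodule.finrank_mono hker
  rw [LinearMap.finrank_range_of_inj hL, Module.finrank_pi, ← Nat.card_eq_fintype_card] at h2
  rw [Module.finrank_pi] at h1
  rw [moveSpace]
  unfold cycleCount
  omega

/-- Scott's inequality for a transitive group. -/
theorem cycleCount_triple {x y z : Equiv.Perm ι} (h : x * y * z = 1)
    (htrans : ∀ i j : ι, ∃ g ∈ Subgroup.closure {x, y}, g i = j) :
    cycleCount x + cycleCount y + cycleCount z ≤ Fintype.card ι + 2 := by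
  classical
  have hz : z ∈ Subgroup.closure {x, y} := by
    rw [show z = (x * y)⁻¹ by rw [eq_inv_iff_mul_eq_one]; exact (mul_eq_one_comm.mp h)]
    exact Subgroup.inv_mem _ (Subgroup.mul_mem _ (Subgroup.subset_closure (by simp))
      (Subgroup.subset_closure (by simp)))
  let δ : (moveSpace x × moveSpace y × moveSpace z) →ₗ[ℚ] (ι → ℚ) :=
    LinearMap.coprod (moveSpace x).subtype
      (LinearMap.coprod ((permLin x).comp (moveSpace y).subtype)
        ((permLin (x * y)).comp (moveSpace z).subtype))
  let ε : (ι → ℚ) →ₗ[ℚ] (moveSpace x × moveSpace y × moveSpace z) :=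
    LinearMap.prod (LinearMap.rangeRestrict (permLin x - LinearMap.id))
      (LinearMap.prod (LinearMap.rangeRestrict (permLin y - LinearMap.id))
        (LinearMap.rangeRestrict (permLin z - LinearMap.id)))
  have hcomp : LinearMap.range ε ≤ LinearMap.ker δ := by
    rintro _ ⟨v, rfl⟩
    rw [LinearMap.mem_ker]
    show (permLin x v - v) + (permLin x (permLin y v - v) +
      permLin (x * y) (permLin z v - v)) = 0
    rw [map_sub, map_sub, ← permLin_mul, ← permLin_mul, h, permLin_one]
    abel
  -- the image of `δ`
  have hW : ∀ g ∈ Subgroup.closure {x, y}, ∀ v, permLin g v - v ∈ LinearMap.range δ := by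
    have ha : ∀ v, permLin x v - v ∈ LinearMap.range δ := fun v =>
      ⟨(⟨_, LinearMap.mem_range_self (permLin x - LinearMap.id) v⟩, 0), by simp [δ]⟩
    have hb : ∀ v, permLin x (permLin y v - v) ∈ LinearMap.range δ := fun v =>
      ⟨(0, (⟨_, LinearMap.mem_range_self (permLin y - LinearMap.id) v⟩, 0)), by simp [δ]⟩
    intro g hg
    induction hg using Subgroup.closure_induction with
    | mem g hg =>
      intro v
      rcases hg with rfl | rfl
      · exact ha v
      · have := Submodule.sub_mem _ (hb v) (ha (permLin g v - v))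
        rwa [sub_sub_cancel] at this
    | one => intro v; rw [permLin_one, sub_self]; exact Submodule.zero_mem _
    | mul a b _ _ iha ihb =>
      intro v
      have := Submodule.add_mem _ (iha (permLin b v)) (ihb v)
      rwa [sub_add_sub_cancel, ← permLin_mul] at this
    | inv a _ iha =>
      intro v
      have := Submodule.neg_mem _ (iha (permLin a⁻¹ v))
      rwa [neg_sub, ← permLin_mul, mul_inv_cancel, permLin_one] at this
  have hrange : Fintype.card ι ≤ Module.finrank ℚ (LinearMap.range δ) + 1 := by
    rcases isEmpty_or_nonempty ι with hι | ⟨⟨i₀⟩⟩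
    · simp
    let S := LinearMap.range δ ⊔ Submodule.span ℚ {Pi.single i₀ (1 : ℚ)}
    have htop : S = ⊤ := by
      rw [eq_top_iff, ← (Pi.basisFun ℚ ι).span_eq, Submodule.span_le]
      rintro _ ⟨j, rfl⟩
      obtain ⟨g, hg, hgj⟩ := htrans i₀ j
      have e : permLin g (Pi.single i₀ (1 : ℚ)) = Pi.single j 1 := by
        funext k
        show (Pi.single i₀ (1 : ℚ) : ι → ℚ) (g⁻¹ k) = _
        rw [← hgj]
        by_cases hk : k = g i₀
        · subst hk; simp
        · rw [Pi.single_eq_of_ne hk, Pi.single_eq_of_ne]
          intro hc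
          exact hk (Equiv.Perm.inv_eq_iff_eq.mp hc)
      rw [Pi.basisFun_apply, ← e]
      have := Submodule.add_mem_sup (hW g hg (Pi.single i₀ 1))
        (Submodule.mem_span_singleton_self (Pi.single i₀ (1 : ℚ)))
      rwa [sub_add_cancel] at this
    have h1 := Submodule.finrank_add_le_finrank_add_finrank (LinearMap.range δ)
      (Submodule.span ℚ {Pi.single i₀ (1 : ℚ)})
    rw [show LinearMap.range δ ⊔ Submodule.span ℚ {Pi.single i₀ (1 : ℚ)} = ⊤ from htop,
      finrank_top, Module.finrank_pi, finrank_span_singleton (by
        intro hc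
        simpa using congrFun hc i₀)] at h1
    exact h1
  -- the kernel of `ε`
  have hkerε : Module.finrank ℚ (LinearMap.ker ε) ≤ 1 := by
    refine (Submodule.finrank_mono (t := Submodule.span ℚ {(1 : ι → ℚ)}) ?_).trans
      ((finrank_span_le_card _).trans (by simp))
    intro v hv
    rw [LinearMap.mem_ker] at hv
    have hx : permLin x v = v :=
      sub_eq_zero.mp (congrArg (fun w : moveSpace x × moveSpace y × moveSpace z => (w.1 : ι → ℚ)) hv)
    have hy : permLin y v = v :=
      sub_eq_zero.mp (congrArg (fun w : moveSpace x × moveSpace y × moveSpace z => (w.2.1 : ι → ℚ)) hv)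
    have hall : ∀ g ∈ Subgroup.closure {x, y}, permLin g v = v := by
      intro g hg
      induction hg using Subgroup.closure_induction with
      | mem g hg => rcases hg with rfl | rfl <;> assumption
      | one => exact permLin_one v
      | mul a b _ _ iha ihb => rw [permLin_mul, ihb, iha]
      | inv a _ iha =>
        conv_lhs => rw [← iha]
        rw [← permLin_mul, inv_mul_cancel, permLin_one]
    rw [Submodule.mem_span_singleton]
    rcases isEmpty_or_nonempty ι with hι | ⟨⟨i₀⟩⟩
    · exact ⟨0, funext fun i => isEmptyElim i⟩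
    refine ⟨v i₀, funext fun j => ?_⟩
    obtain ⟨g, hg, hgj⟩ := htrans i₀ j
    have h1 : v (g⁻¹ j) = v j := congrFun (hall g hg) j
    rw [← hgj, Equiv.Perm.coe_inv, Equiv.symm_apply_apply, hgj] at h1
    simp [h1]
  have h1 := LinearMap.finrank_range_add_finrank_ker δ
  have h2 := LinearMap.finrank_range_add_finrank_ker ε
  have h3 := Submodule.finrank_mono hcomp
  rw [Module.finrank_prod, Module.finrank_prod] at h1
  rw [Module.finrank_pi] at h2
  have := finrank_moveSpace_add x
  have := finrank_moveSpace_add y
  have := finrank_moveSpace_add z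
  omega

/-- A lower bound for the number of cycles of an element of period `p`. -/
theorem le_cycleCount {g : Equiv.Perm ι} {p : ℕ} (hp : 0 < p) (hg : g ^ p = 1) :
    Fintype.card ι + (p - 1) * (Finset.univ.filter fun i => g i = i).card ≤ p * cycleCount g := by
  classical
  let q : ι → Quotient (Equiv.Perm.SameCycle.setoid g) := Quotient.mk _
  set F := Finset.univ.filter fun i => g i = i
  have hpow : ∀ a b, q a = q b → ∃ j < p, (g ^ j) a = b := by
    intro a b hab
    obtain ⟨k, hk⟩ := (Quotient.exact hab : Equiv.Perm.SameCycle g a b)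
    refine ⟨(k % p).toNat, ?_, ?_⟩
    · have := Int.emod_lt_of_pos k (by exact_mod_cast hp : (0 : ℤ) < p)
      omega
    · rw [← zpow_natCast, Int.toNat_of_nonneg (Int.emod_nonneg k (by omega))]
      have h1 : g ^ (p : ℤ) = 1 := by rw [zpow_natCast, hg]
      conv_rhs => rw [← hk, ← Int.mul_ediv_add_emod k p, zpow_add, zpow_mul, h1, one_zpow, one_mul]
  have hfix : ∀ a ∈ F, ∀ b, q a = q b → b = a := by
    intro a ha b hab
    obtain ⟨j, -, rfl⟩ := hpow a b hab
    exact Equiv.Perm.pow_apply_eq_self_of_apply_eq_self (Finset.mem_filter.mp ha).2 j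
  have hinj : Set.InjOn q F := fun a ha b _ hab => (hfix a ha b hab).symm
  have hsplit : ∀ c : Quotient (Equiv.Perm.SameCycle.setoid g),
      (Finset.univ.filter fun i => q i = c).card + (if c ∈ F.image q then p - 1 else 0) ≤ p := by
    intro c
    split
    · rename_i hc
      obtain ⟨a, ha, rfl⟩ := Finset.mem_image.mp hc
      have : (Finset.univ.filter fun i => q i = q a) = {a} := by
        ext i
        simp only [Finset.mem_filter, Finset.mem_univ, true_and, Finset.mem_singleton]
        exact ⟨fun h => hfix a ha i h.symm, fun h => by rw [h]⟩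
      rw [this, Finset.card_singleton]
      omega
    · obtain ⟨a, rfl⟩ := Quotient.exists_rep c
      refine le_trans (le_of_eq (add_zero _)) ((Finset.card_le_card (t :=
        (Finset.range p).image fun j => (g ^ j) a) fun i hi => ?_).trans
        (Finset.card_image_le.trans (Finset.card_range p).le))
      obtain ⟨j, hj, he⟩ := hpow a i (Finset.mem_filter.mp hi).2.symm
      exact Finset.mem_image.mpr ⟨j, Finset.mem_range.mpr hj, he⟩
  have hsum := Finset.sum_le_sum (s := Finset.univ) fun c _ => hsplit c
  rw [Finset.sum_add_distrib, ← Finset.card_eq_sum_card_fiberwise (fun i _ => Finset.mem_univ _),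
    Finset.sum_ite_mem, Finset.univ_inter, Finset.sum_const, Finset.sum_const,
    Finset.card_image_of_injOn hinj, Finset.card_univ, Finset.card_univ,
    ← Nat.card_eq_fintype_card (α := Quotient (Equiv.Perm.SameCycle.setoid g)), smul_eq_mul,
    smul_eq_mul] at hsum
  rw [cycleCount]
  linarith [mul_comm (p - 1) F.card, mul_comm p (Nat.card (Quotient (Equiv.Perm.SameCycle.setoid g)))]

end

end Cfsg.Agent.H12
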