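import Cfsg.Agent.H13.Groups
import Cfsg.Agent.H11.M24Chain
import Cfsg.Agent.H12.ClassReps
import Cfsg.Agent.H12.Centralizers
import Cfsg.Agent.H12.DuadIndex
import Cfsg.Agent.H12.Scott
import Cfsg.Agent.H12.TripleData

/-!
Generation of M₂₃ by triples of prime orders: witnesses, and impossibility by the cycle inequality.
-/

set_option autoImplicit false

namespace Cfsg.Agent.H12

open MulAction
open scoped Pointwise

theorem mem_M23_iff {g : Equiv.Perm GolayPt} :
    g ∈ Spor.M23 ↔ g ∈ M24 ∧ g none = none := by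
  simp [Spor.M23]

/-! ### Witnesses -/

theorem tripData_check : (tripData.all fun e =>
    let (p, q, r, a, b, L) := e
    fixesCode a && fixesCode b && Nat.beq (app a 23) 23 && Nat.beq (app b 23) 23 &&
      !(Nat.beq (pmul a pone) pone) && !(Nat.beq (pmul b pone) pone) &&
      !(Nat.beq (pmul a b) pone) &&
      Nat.beq (Nat.rec pone (fun _ t => pmul a t) p) pone &&
      Nat.beq (Nat.rec pone (fun _ t => pmul b t) q) pone &&
      Nat.beq (Nat.rec pone (fun _ t => pmul (pmul a b) t) r) pone &&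
      H11.slpOK [pone, a, b] L &&
      H13.Data.g23.all fun s => memList (pack s.1) (H11.slpPerms [pone, a, b] L)) = true := by
  decide +kernel

theorem pow_of_rec {a : ℕ} (ha : isPerm a = true) (p : ℕ) :
    isPerm (Nat.rec (motive := fun _ => ℕ) pone (fun _ t => pmul a t) p) = true ∧
      permOf (Nat.rec (motive := fun _ => ℕ) pone (fun _ t => pmul a t) p) = permOf a ^ p := by
  induction p with
  | zero => exact ⟨pone_spec.1, by rw [pow_zero]; exact pone_spec.2⟩
  | succ p ih =>
    exact ⟨(pmul_spec ha ih.1).1, by rw [pow_succ', ← ih.2]; exact (pmul_spec ha ih.1).2⟩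

theorem orderOf_of_rec {a : ℕ} (ha : isPerm a = true) {p : ℕ} (hp : p.Prime)
    (h : Nat.rec (motive := fun _ => ℕ) pone (fun _ t => pmul a t) p = pone)
    (hne : pmul a pone ≠ pone) : orderOf (permOf a) = p := by
  haveI := Fact.mk hp
  refine orderOf_eq_prime ?_ ?_
  · rw [← (pow_of_rec ha p).2, h, pone_spec.2]
  · intro e
    refine hne ?_
    have h1 := pmul_spec ha pone_spec.1
    rw [← code_pmul ha pone_spec.1, h1.2, e, pone_spec.2, one_mul]
    decide +kernel

theorem triple_exists {e : ℕ × ℕ × ℕ × ℕ × ℕ × List (ℕ × Bool × ℕ × ℕ)} (he : e ∈ tripData)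
    (hp : e.1.Prime) (hq : e.2.1.Prime) (hr : e.2.2.1.Prime) :
    ∃ x y z : Spor.M23, orderOf x = e.1 ∧ orderOf y = e.2.1 ∧ orderOf z = e.2.2.1 ∧
      x * y * z = 1 ∧ Subgroup.closure {x, y} = ⊤ := by
  obtain ⟨p, q, r, a, b, L⟩ := e
  have h := List.all_eq_true.mp tripData_check _ he
  simp only [Bool.and_eq_true, Bool.not_eq_true', ← Bool.not_eq_true, Nat.beq_eq,
    List.all_eq_true] at h
  obtain ⟨⟨⟨⟨⟨⟨⟨⟨⟨⟨⟨ha, hb⟩, ha23⟩, hb23⟩, hane⟩, hbne⟩, habne⟩, hap⟩, hbq⟩, habr⟩, hslp⟩, hgen⟩ := h
  have hisA : isPerm a = true := by rw [fixesCode, Bool.and_eq_true] at ha; exact ha.1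
  have hisB : isPerm b = true := by rw [fixesCode, Bool.and_eq_true] at hb; exact hb.1
  have mem : ∀ {c : ℕ}, fixesCode c = true → isPerm c = true → app c 23 = 23 →
      permOf c ∈ Spor.M23 := by
    intro c hc hcp h23
    refine mem_M23_iff.mpr ⟨permOf_mem_M24 hc, ?_⟩
    show permOf c (pt 23) = pt 23
    rw [permOf_pt hcp (by norm_num), h23]
  let x : Spor.M23 := ⟨permOf a, mem ha hisA ha23⟩
  let y : Spor.M23 := ⟨permOf b, mem hb hisB hb23⟩
  have hab := pmul_spec hisA hisB
  refine ⟨x, y, (x * y)⁻¹, (Subgroup.orderOf_coe x).symm.trans (orderOf_of_rec hisA hp hap hane),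
    (Subgroup.orderOf_coe y).symm.trans (orderOf_of_rec hisB hq hbq hbne), ?_, mul_inv_cancel _, ?_⟩
  · rw [orderOf_inv, ← Subgroup.orderOf_coe]
    show orderOf (permOf a * permOf b) = r
    rw [← hab.2]
    refine orderOf_of_rec hab.1 hr habr ?_
    intro e
    apply habne
    rw [← code_pmul hisA hisB]
    rw [← code_pmul hab.1 pone_spec.1, (pmul_spec hab.1 pone_spec.1).2, pone_spec.2, mul_one] at e
    exact e
  · apply Subgroup.map_injective Spor.M23.subtype_injective
    rw [MonoidHom.map_closure, ← MonoidHom.range_eq_map, Subgroup.range_subtype, Set.image_pair]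
    refine le_antisymm ((Subgroup.closure_le _).mpr ?_) ?_
    · rintro g (rfl | rfl)
      exacts [x.2, y.2]
    · refine le_trans (le_of_eq H13.M23_eq) ?_
      refine H13.grp_le H13.Data.g23_valid fun s hs g hg => ?_
      have hg' : g = permOf (pack s.1) := by
        rw [← hg, (H13.permOf_pack_img _).2, H13.toFin.symm_apply_apply]
      rw [hg']
      refine (H11.slp_mem _ L [pone, a, b] ?_ hslp _ (memList_spec (hgen s hs))).2
      intro c hc
      simp only [List.mem_cons, List.not_mem_nil, or_false] at hc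
      rcases hc with rfl | rfl | rfl
      · exact ⟨pone_spec.1, pone_spec.2 ▸ Subgroup.one_mem _⟩
      · exact ⟨hisA, Subgroup.subset_closure (Or.inl rfl)⟩
      · exact ⟨hisB, Subgroup.subset_closure (Or.inr rfl)⟩

/-! ### The action on 23 points -/

theorem removeNone_apply {g : Equiv.Perm GolayPt} (hg : g none = none) (x : ZMod 23) :
    (some (Equiv.removeNone g x) : GolayPt) = g (some x) := by
  apply Equiv.removeNone_some
  rcases h : g (some x) with - | a
  · exact absurd (g.injective (h.trans hg.symm)) (by simp)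
  · exact ⟨a, rfl⟩

theorem removeNone_mul {g h : Equiv.Perm GolayPt} (hg : g none = none) (hh : h none = none) :
    Equiv.removeNone (g * h) = Equiv.removeNone g * Equiv.removeNone h := by
  refine Equiv.ext fun x => Option.some_injective _ ?_
  rw [Equiv.Perm.mul_apply, removeNone_apply hg, removeNone_apply hh,
    removeNone_apply (by rw [Equiv.Perm.mul_apply, hh, hg]), Equiv.Perm.mul_apply]

theorem removeNone_perm_one : Equiv.removeNone (1 : Equiv.Perm GolayPt) = 1 := by
  refine Equiv.ext fun x => Option.some_injective _ ?_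
  rw [removeNone_apply rfl]
  rfl

/-- The action of M₂₃ on 23 points. -/
noncomputable def toPerm23 : Spor.M23 →* Equiv.Perm (ZMod 23) where
  toFun g := Equiv.removeNone (g : Equiv.Perm GolayPt)
  map_one' := removeNone_perm_one
  map_mul' g h := removeNone_mul (mem_M23_iff.mp g.2).2 (mem_M23_iff.mp h.2).2

theorem card_fix23 (g : Spor.M23) :
    (Finset.univ.filter fun x => (g : Equiv.Perm GolayPt) x = x).card =
      (Finset.univ.filter fun x => toPerm23 g x = x).card + 1 := by
  have hg := (mem_M23_iff.mp g.2).2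
  rw [show (Finset.univ.filter fun x => (g : Equiv.Perm GolayPt) x = x) =
      insert none ((Finset.univ.filter fun x => toPerm23 g x = x).map Function.Embedding.some) by
    ext p
    rcases p with - | x
    · simp [hg]
    · have h1 : (some (toPerm23 g x) : GolayPt) = (g : Equiv.Perm GolayPt) (some x) :=
        removeNone_apply hg x
      rw [Finset.mem_filter, Finset.mem_insert, Finset.mem_map, ← h1]
      constructor
      · intro h
        exact Or.inr ⟨x, Finset.mem_filter.mpr ⟨Finset.mem_univ x, Option.some.inj h.2⟩, rfl⟩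
      · rintro (h | ⟨y, hy, he⟩)
        · simp at h
        · obtain rfl : y = x := Option.some.inj he
          exact ⟨Finset.mem_univ _, congrArg _ (Finset.mem_filter.mp hy).2⟩,
    Finset.card_insert_of_notMem (by simp), Finset.card_map]

/-- Lower bounds on the number of cycles on 23 points. -/
theorem cycle_bounds (g : Spor.M23) :
    (orderOf g = 2 → 15 ≤ cycleCount (toPerm23 g)) ∧ (orderOf g = 3 → 11 ≤ cycleCount (toPerm23 g)) ∧
    (orderOf g = 5 → 7 ≤ cycleCount (toPerm23 g)) ∧ (orderOf g = 7 → 5 ≤ cycleCount (toPerm23 g)) := by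
  obtain ⟨hm, hg⟩ := mem_M23_iff.mp g.2
  have hcard : Fintype.card (ZMod 23) = 23 := ZMod.card 23
  have hf := card_fix23 g
  have key : ∀ p, 0 < p → orderOf g = p →
      23 + (p - 1) * (Finset.univ.filter fun x => toPerm23 g x = x).card ≤
        p * cycleCount (toPerm23 g) := by
    intro p hp ho
    have := le_cycleCount (g := toPerm23 g) hp (by rw [← map_pow, ← ho, pow_orderOf_eq_one, map_one])
    rwa [hcard] at this
  have hnone : none ∈ fixPts (g : Equiv.Perm GolayPt) := by simp [fixPts, hg]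
  have hco : ∀ {n}, orderOf g = n → orderOf (g : Equiv.Perm GolayPt) = n := fun h => by
    rwa [Subgroup.orderOf_coe]
  refine ⟨fun h => ?_, fun h => ?_, fun h => ?_, fun h => ?_⟩
  · have := key 2 (by norm_num) h
    rcases involution_cases hm (hco h) with ⟨ho, -⟩ | ⟨ho, -⟩
    · have h8 : (fixPts (g : Equiv.Perm GolayPt)).card = 8 := by
        obtain ⟨m, hm', he⟩ := exists_mask (fixPts (g : Equiv.Perm GolayPt))
        rw [← he] at ho ⊢
        exact fin_card_of_isOctad ((fin_mem_octads hm').mp ho)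
      rw [fixPts] at h8
      omega
    · rw [ho] at hnone
      simp at hnone
  · have := key 3 (by norm_num) h
    rcases order_three_cases hm (hco h) with ⟨ho, -⟩ | ⟨ho, -⟩
    · rw [fixPts] at ho
      omega
    · rw [Finset.card_eq_zero.mp ho] at hnone
      simp at hnone
  · have := key 5 (by norm_num) h
    obtain ⟨k, hk⟩ := dvd_moved_card (g := (g : Equiv.Perm GolayPt)) (by norm_num : Nat.Prime 5)
      ((hco h) ▸ pow_orderOf_eq_one _) (s := Finset.univ) (fun x => by simp)
    have hsum := Finset.card_filter_add_card_filter_not (s := (Finset.univ : Finset GolayPt))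
      (fun x => (g : Equiv.Perm GolayPt) x = x)
    rw [Finset.card_univ, show Fintype.card GolayPt = 24 from rfl] at hsum
    have h5 : (Finset.univ.filter fun x => (g : Equiv.Perm GolayPt) x = x).card < 5 := by
      by_contra hlt
      have h6 := orderOf_dvd_of_pow_eq_one (pow_six_of_five_fixed hm (by omega))
      rw [hco h] at h6
      norm_num at h6
    simp only [ne_eq] at hk
    omega
  · have := key 7 (by norm_num) h
    have := (card_fixed_seven_eleven hm).1 (hco h)
    omega

theorem cycleCount_pos (g : Equiv.Perm (ZMod 23)) : 1 ≤ cycleCount g :=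
  Nat.one_le_iff_ne_zero.mpr Nat.card_pos.ne'

/-- Generators with product one satisfy the cycle inequality on 23 points. -/
theorem generation_bound {x y z : Spor.M23} (h : x * y * z = 1)
    (hgen : Subgroup.closure {x, y} = ⊤) :
    cycleCount (toPerm23 x) + cycleCount (toPerm23 y) + cycleCount (toPerm23 z) ≤ 25 := by
  have hb := cycleCount_triple (x := toPerm23 x) (y := toPerm23 y) (z := toPerm23 z)
    (by rw [← map_mul, ← map_mul, h, map_one]) fun i j => by
      have hs : (Equiv.optionCongr (Equiv.addRight (1 : ZMod 23)) : Equiv.Perm GolayPt) ∈ Spor.M23 := by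
        refine mem_M23_iff.mpr ⟨?_, rfl⟩
        rw [← H11.permOf_shift]
        exact (H11.genPerms_mem_M24 _ (by decide +kernel)).2
      have hpow : ∀ n : ℕ, ∀ k : ZMod 23,
          (toPerm23 (⟨_, hs⟩ : Spor.M23) ^ n) k = k + (n : ZMod 23) := by
        intro n
        induction n with
        | zero => simp
        | succ n ih =>
          intro k
          rw [pow_succ', Equiv.Perm.mul_apply, ih]
          apply Option.some_injective
          show some (Equiv.removeNone _ _) = _
          rw [removeNone_apply rfl]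
          simp [add_assoc]
      refine ⟨toPerm23 (⟨_, hs⟩ : Spor.M23) ^ (j - i).val, ?_, ?_⟩
      · rw [show ({toPerm23 x, toPerm23 y} : Set (Equiv.Perm (ZMod 23))) = toPerm23 '' {x, y} by
          rw [Set.image_pair], ← MonoidHom.map_closure, hgen, ← map_pow]
        exact Subgroup.mem_map_of_mem _ (Subgroup.mem_top _)
      · rw [hpow, ZMod.natCast_zmod_val, add_sub_cancel]
  rwa [ZMod.card] at hb

theorem triple_cases {p : ℕ} (hp : p.Prime) (h : p ∣ 10200960) :
    p ∈ [2, 3, 5, 7, 11, 23] := by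
  rw [show (10200960 : ℕ) = 2 ^ 7 * (3 ^ 2 * (5 * (7 * (11 * 23)))) by norm_num] at h
  have hd : ∀ q : ℕ, q.Prime → p ∣ q → p = q := fun q hq hpq =>
    (Nat.prime_dvd_prime_iff_eq hp hq).mp hpq
  rcases hp.dvd_mul.mp h with h | h
  · simp [hd 2 (by norm_num) (hp.dvd_of_dvd_pow h)]
  rcases hp.dvd_mul.mp h with h | h
  · simp [hd 3 (by norm_num) (hp.dvd_of_dvd_pow h)]
  rcases hp.dvd_mul.mp h with h | h
  · simp [hd 5 (by norm_num) h]
  rcases hp.dvd_mul.mp h with h | h
  · simp [hd 7 (by norm_num) h]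
  rcases hp.dvd_mul.mp h with h | h
  · simp [hd 11 (by norm_num) h]
  · simp [hd 23 (by norm_num) h]

theorem tripData_cover : ∀ p ∈ [2, 3, 5, 7, 11, 23], ∀ q ∈ [2, 3, 5, 7, 11, 23],
    ∀ r ∈ [2, 3, 5, 7, 11, 23], p ≤ q → q ≤ r → ¬(p = 2 ∧ q = 2) →
    ¬((p = 2 ∧ q = 3) ∨ (p = 2 ∧ q = 5 ∧ r = 5) ∨ (p = 2 ∧ q = 5 ∧ r = 7) ∨
      (p = 3 ∧ q = 3 ∧ r ≤ 7)) →
    (p, q, r) ∈ tripData.map fun e => (e.1, e.2.1, e.2.2.1) := by
  decide +kernel

/-- The generation statement. -/
theorem m23_triples (p q r : ℕ) (hp : p.Prime) (hq : q.Prime) (hr : r.Prime) (hpq : p ≤ q)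
    (hqr : q ≤ r) (hp2 : ¬(p = 2 ∧ q = 2))
    (hdvd : p ∣ 10200960 ∧ q ∣ 10200960 ∧ r ∣ 10200960) :
    (∃ x y z : Spor.M23, orderOf x = p ∧ orderOf y = q ∧ orderOf z = r ∧ x * y * z = 1 ∧
        Subgroup.closure {x, y} = ⊤) ↔
      ¬((p = 2 ∧ q = 3) ∨ (p = 2 ∧ q = 5 ∧ r = 5) ∨ (p = 2 ∧ q = 5 ∧ r = 7) ∨
        (p = 3 ∧ q = 3 ∧ r ≤ 7)) := by
  constructor
  · rintro ⟨x, y, z, hx, hy, hz, hxyz, hgen⟩ hneg
    have hb := generation_bound hxyz hgen
    have := cycleCount_pos (toPerm23 z)
    obtain ⟨x2, x3, x5, x7⟩ := cycle_bounds x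
    obtain ⟨y2, y3, y5, y7⟩ := cycle_bounds y
    obtain ⟨z2, z3, z5, z7⟩ := cycle_bounds z
    rcases hneg with ⟨rfl, rfl⟩ | ⟨rfl, rfl, rfl⟩ | ⟨rfl, rfl, rfl⟩ | ⟨rfl, rfl, hr7⟩
    · have := x2 hx; have := y3 hy; omega
    · have := x2 hx; have := y5 hy; have := z5 hz; omega
    · have := x2 hx; have := y5 hy; have := z7 hz; omega
    · have := x3 hx; have := y3 hy
      have hr' : r = 3 ∨ r = 5 ∨ r = 7 := by
        interval_cases r <;> first | omega | exact absurd hr (by norm_num)
      rcases hr' with e | e | e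
      · have := z3 (hz.trans e); omega
      · have := z5 (hz.trans e); omega
      · have := z7 (hz.trans e); omega
  · intro hpos
    have hmem := tripData_cover p (triple_cases hp hdvd.1) q (triple_cases hq hdvd.2.1) r
      (triple_cases hr hdvd.2.2) hpq hqr hp2 hpos
    obtain ⟨e, he, heq⟩ := List.mem_map.mp hmem
    simp only [Prod.mk.injEq] at heq
    obtain ⟨rfl, rfl, rfl⟩ := heq
    exact triple_exists he hp hq hr

end Cfsg.Agent.H12
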