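import Cfsg.Agent.H12.Classes
import Cfsg.Agent.H11.OctadStab

/-!
Six-element sets under `M24`: two kinds, the induced symmetric group, pointwise stabilisers.
-/

set_option autoImplicit false

namespace Cfsg.Agent.H12

open scoped Pointwise

/-- Every arrangement of six given points is induced by some automorphism of the code. -/
noncomputable def sixArrangeCheck (x : ℕ) : Bool :=
  let pts := [0, 1, 2, 3, 4, x]
  allList pts fun a => allList pts fun b => Nat.beq a b || allList pts fun c =>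
    memList c [a, b] || allList pts fun d => memList d [a, b, c] || allList pts fun e =>
    memList e [a, b, c, d] || allList pts fun f => memList f [a, b, c, d, e] ||
      forceNat (mapFive a b c d e) fun P =>
        Nat.beq (app P 0) a && Nat.beq (app P 1) b && Nat.beq (app P 2) c && Nat.beq (app P 3) d &&
          Nat.beq (app P 4) e && fix5.any fun h => Nat.beq (compFun P h x) f

theorem sixArrange_ok : (sixArrangeCheck 7 && sixArrangeCheck 5) = true := by decide +kernel

/-- The standard six-element sets. -/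
def sixBase (x : ℕ) : Finset GolayPt := ([0, 1, 2, 3, 4, x].map pt).toFinset

theorem mem_sixBase {x : ℕ} {p : GolayPt} :
    p ∈ sixBase x ↔ ∃ i ∈ [0, 1, 2, 3, 4, x], pt i = p := by
  rw [sixBase, List.mem_toFinset, List.mem_map]

theorem sixArrange {x : ℕ} (hx : x = 7 ∨ x = 5) (σ : Equiv.Perm ↥(sixBase x)) :
    ∃ g ∈ M24, ∀ p : ↥(sixBase x), g p = σ p := by
  have hxlt : x < 24 := by omega
  have hcheck : sixArrangeCheck x = true := by
    have h := sixArrange_ok
    rw [Bool.and_eq_true] at h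
    rcases hx with rfl | rfl
    exacts [h.1, h.2]
  have hmem : ∀ i ∈ [0, 1, 2, 3, 4, x], pt i ∈ sixBase x := by
    intro i hi
    exact mem_sixBase.mpr ⟨i, hi, rfl⟩
  have hlt : ∀ i ∈ [0, 1, 2, 3, 4, x], i < 24 := by
    intro i hi
    simp only [List.mem_cons, List.not_mem_nil, or_false] at hi
    omega
  have himg : ∀ p : ↥(sixBase x), idx p.1 ∈ [0, 1, 2, 3, 4, x] := by
    intro p
    obtain ⟨j, hj, he⟩ := mem_sixBase.mp p.2
    rw [← he, idx_pt (hlt j hj)]
    exact hj
  let s : ∀ i, i ∈ [0, 1, 2, 3, 4, x] → ℕ := fun i hi => idx (σ ⟨pt i, hmem i hi⟩).1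
  have sinj : ∀ i hi j hj, i ≠ j → s i hi ≠ s j hj := by
    intro i hi j hj hne he
    exact hne (pt_inj (hlt i hi) (hlt j hj)
      (congrArg Subtype.val (σ.injective (Subtype.ext (idx_injective he)))))
  have m0 : 0 ∈ [0, 1, 2, 3, 4, x] := by simp
  have m1 : 1 ∈ [0, 1, 2, 3, 4, x] := by simp
  have m2 : 2 ∈ [0, 1, 2, 3, 4, x] := by simp
  have m3 : 3 ∈ [0, 1, 2, 3, 4, x] := by simp
  have m4 : 4 ∈ [0, 1, 2, 3, 4, x] := by simp
  have mx : x ∈ [0, 1, 2, 3, 4, x] := by simp
  have nm : ∀ {v : ℕ} {l : List ℕ}, v ∉ l → memList v l = false := fun {v l} h => by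
    rw [← Bool.not_eq_true]
    exact fun h' => h (memList_spec h')
  have hs : ∀ i hi, s i hi ∈ [0, 1, 2, 3, 4, x] := fun i hi => himg _
  simp only [sixArrangeCheck] at hcheck
  have h1 := allList_spec hcheck _ (hs 0 m0)
  have h2 := allList_spec h1 _ (hs 1 m1)
  have e01 : Nat.beq (s 0 m0) (s 1 m1) = false := by
    rw [← Bool.not_eq_true, Nat.beq_eq]
    exact sinj 0 m0 1 m1 (by norm_num)
  rw [e01, Bool.false_or] at h2
  have h3 := allList_spec h2 _ (hs 2 m2)
  rw [nm (by simp [sinj 2 m2 0 m0 (by norm_num), sinj 2 m2 1 m1 (by norm_num)]),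
    Bool.false_or] at h3
  have h4 := allList_spec h3 _ (hs 3 m3)
  rw [nm (by simp [sinj 3 m3 0 m0 (by norm_num), sinj 3 m3 1 m1 (by norm_num),
    sinj 3 m3 2 m2 (by norm_num)]), Bool.false_or] at h4
  have h5 := allList_spec h4 _ (hs 4 m4)
  rw [nm (by simp [sinj 4 m4 0 m0 (by norm_num), sinj 4 m4 1 m1 (by norm_num),
    sinj 4 m4 2 m2 (by norm_num), sinj 4 m4 3 m3 (by norm_num)]), Bool.false_or] at h5
  have h6 := allList_spec h5 _ (hs x mx)
  rw [nm (by simp [sinj x mx 0 m0 (by omega), sinj x mx 1 m1 (by omega),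
    sinj x mx 2 m2 (by omega), sinj x mx 3 m3 (by omega), sinj x mx 4 m4 (by omega)]),
    Bool.false_or] at h6
  simp only [forceNat_eq, Bool.and_eq_true, List.any_eq_true, Nat.beq_eq] at h6
  obtain ⟨⟨⟨⟨⟨e0, e1⟩, e2⟩, e3⟩, e4⟩, h, hh, hf⟩ := h6
  generalize hP : mapFive _ _ _ _ _ = P at e0 e1 e2 e3 e4 hf
  have hPs : isPerm P = true ∧ permOf P ∈ M24 := hP ▸ mapFive_spec ..
  obtain ⟨hhp, hhm, -, hh5⟩ := fix5_spec hh
  obtain ⟨hQ, hQm⟩ := pmul_mem hPs ⟨hhp, hhm⟩
  refine ⟨permOf (pmul P h), hQm, ?_⟩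
  rintro ⟨p, hp⟩
  obtain ⟨i, hi, rfl⟩ := mem_sixBase.mp hp
  rw [permOf_pt hQ (hlt i hi)]
  have key : app (pmul P h) i = s i hi := by
    simp only [List.mem_cons, List.not_mem_nil, or_false] at hi
    rcases hi with rfl | rfl | rfl | rfl | rfl | rfl
    · rw [app_pmul (by norm_num), hh5 0 (by norm_num), e0]
    · rw [app_pmul (by norm_num), hh5 1 (by norm_num), e1]
    · rw [app_pmul (by norm_num), hh5 2 (by norm_num), e2]
    · rw [app_pmul (by norm_num), hh5 3 (by norm_num), e3]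
    · rw [app_pmul (by norm_num), hh5 4 (by norm_num), e4]
    · rw [← compFun_eq hxlt, hf]
  rw [key]
  exact pt_idx _

theorem fix5_moves_check : (allBelow 5 24 fun j => Nat.blt j 5 ||
    fix5.any fun h => Nat.beq (app h (cond (H11.octad0.testBit j) 7 5)) j) = true := by
  decide +kernel

/-- Two kinds of six-element sets. -/
theorem exists_sixBase {E : Finset GolayPt} (hE : E.card = 6) :
    ∃ x, (x = 7 ∨ x = 5) ∧ ∃ k ∈ M24, k • sixBase x = E := by
  obtain ⟨S, hSE, hS⟩ := Finset.exists_subset_card_eq (s := E) (n := 5) (by omega)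
  obtain ⟨e, he, heS⟩ : ∃ e ∈ E, e ∉ S := Finset.exists_mem_notMem_of_card_lt_card (by omega)
  obtain ⟨a, b, c, d, f, hab, hac, had, haf, hbc, hbd, hbf, hcd, hcf, hdf, rfl⟩ :
      ∃ a b c d f : GolayPt, a ≠ b ∧ a ≠ c ∧ a ≠ d ∧ a ≠ f ∧ b ≠ c ∧ b ≠ d ∧ b ≠ f ∧ c ≠ d ∧
        c ≠ f ∧ d ≠ f ∧ S = {a, b, c, d, f} := by
    have hl : S.toList.length = 5 := by rw [Finset.length_toList, hS]
    have hnd := S.nodup_toList
    rcases hq : S.toList with - | ⟨a, - | ⟨b, - | ⟨c, - | ⟨d, - | ⟨f, - | ⟨g, l⟩⟩⟩⟩⟩⟩ <;>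
      simp only [hq, List.length_cons, List.length_nil] at hl <;> try omega
    rw [hq] at hnd
    simp only [List.nodup_cons, List.mem_cons, List.not_mem_nil, or_false, not_or,
      List.nodup_nil, and_true, not_false_eq_true] at hnd
    refine ⟨a, b, c, d, f, hnd.1.1, hnd.1.2.1, hnd.1.2.2.1, hnd.1.2.2.2, hnd.2.1.1, hnd.2.1.2.1,
      hnd.2.1.2.2, hnd.2.2.1.1, hnd.2.2.1.2, hnd.2.2.2, ?_⟩
    rw [← S.toList_toFinset, hq]
    simp
  obtain ⟨k, hk, k0, k1, k2, k3, k4⟩ := exists_five (a := a) (b := b) (c := c) (d := d) (e := f)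
    (by simp [hab, hac, had, haf, hbc, hbd, hbf, hcd, hcf, hdf])
  set j := idx (k⁻¹ e) with hj
  have hj5 : ¬ j < 5 := by
    intro h
    have hkj : k (pt j) = e := by rw [hj, pt_idx]; simp
    apply heS
    rw [← hkj]
    rcases (show j = 0 ∨ j = 1 ∨ j = 2 ∨ j = 3 ∨ j = 4 by omega) with h' | h' | h' | h' | h' <;>
      simp [h', k0, k1, k2, k3, k4]
  have hb := allBelow_spec fix5_moves_check (idx_lt (k⁻¹ e))
  rw [← hj] at hb
  rw [show Nat.blt j 5 = false by rw [← Bool.not_eq_true, Nat.blt_eq]; exact hj5, Bool.false_or,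
    List.any_eq_true] at hb
  obtain ⟨h, hh, hhj⟩ := hb
  rw [Nat.beq_eq] at hhj
  obtain ⟨hhp, hhm, -, hh5⟩ := fix5_spec hh
  refine ⟨cond (H11.octad0.testBit j) 7 5, by cases H11.octad0.testBit j <;> simp,
    k * permOf h, M24.mul_mem hk hhm, ?_⟩
  symm
  refine Finset.eq_of_subset_of_card_le ?_ ?_ |>.symm
  · intro q hq
    obtain ⟨p, hp, rfl⟩ := Finset.mem_smul_finset.mp hq
    rw [sixBase, List.mem_toFinset, List.mem_map] at hp
    obtain ⟨i, hi, rfl⟩ := hp
    simp only [List.mem_cons, List.not_mem_nil, or_false] at hi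
    rw [Equiv.Perm.smul_def, Equiv.Perm.mul_apply]
    rcases hi with rfl | rfl | rfl | rfl | rfl | rfl
    · rw [permOf_pt hhp (by norm_num), hh5 0 (by norm_num), k0]; exact hSE (by simp)
    · rw [permOf_pt hhp (by norm_num), hh5 1 (by norm_num), k1]; exact hSE (by simp)
    · rw [permOf_pt hhp (by norm_num), hh5 2 (by norm_num), k2]; exact hSE (by simp)
    · rw [permOf_pt hhp (by norm_num), hh5 3 (by norm_num), k3]; exact hSE (by simp)
    · rw [permOf_pt hhp (by norm_num), hh5 4 (by norm_num), k4]; exact hSE (by simp)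
    · rw [permOf_pt hhp (by cases H11.octad0.testBit j <;> simp), hhj, hj, pt_idx]
      simpa using he
  · rw [Finset.card_smul_finset, hE]
    cases H11.octad0.testBit j <;> decide +kernel

/-- The list of the pointwise stabiliser of a standard six-element set. -/
noncomputable def sixFix (x : ℕ) : List ℕ := fix5.filter fun h => Nat.beq (app h x) x

theorem card_fix_sixBase {x : ℕ} (hx : x < 24) :
    Nat.card {g : Equiv.Perm GolayPt // g ∈ M24 ∧ ∀ p ∈ sixBase x, g p = p} =
      (sixFix x).length := by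
  classical
  have himage : {g : Equiv.Perm GolayPt | g ∈ M24 ∧ ∀ p ∈ sixBase x, g p = p} =
      ↑((sixFix x).map permOf).toFinset := by
    ext g
    simp only [Set.mem_ofPred_eq, List.coe_toFinset, List.mem_map, sixFix, List.mem_filter,
      Nat.beq_eq]
    constructor
    · rintro ⟨hg, hfix⟩
      obtain ⟨h, hh, rfl⟩ := fix5_complete hg fun i hi => hfix _ (by
        rw [sixBase, List.mem_toFinset]
        refine List.mem_map_of_mem ?_
        simp only [List.mem_cons, List.not_mem_nil, or_false]; omega)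
      refine ⟨h, ⟨hh, (permOf_fixed_iff (fix5_spec hh).1 hx).mp (hfix _ ?_)⟩, rfl⟩
      rw [sixBase, List.mem_toFinset]
      exact List.mem_map_of_mem (by simp)
    · rintro ⟨h, ⟨hh, hhx⟩, rfl⟩
      obtain ⟨hp, hm, -, h5⟩ := fix5_spec hh
      refine ⟨hm, fun p hp' => ?_⟩
      rw [sixBase, List.mem_toFinset, List.mem_map] at hp'
      obtain ⟨i, hi, rfl⟩ := hp'
      simp only [List.mem_cons, List.not_mem_nil, or_false] at hi
      rcases hi with rfl | rfl | rfl | rfl | rfl | rfl <;>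
        first
          | exact (permOf_fixed_iff hp hx).mpr hhx
          | exact (permOf_fixed_iff hp (by norm_num)).mpr (h5 _ (by norm_num))
  change Nat.card ↥{g : Equiv.Perm GolayPt | g ∈ M24 ∧ ∀ p ∈ sixBase x, g p = p} = _
  rw [himage, Nat.card_coe_set_eq, Set.ncard_coe_finset, List.toFinset_card_of_nodup,
    List.length_map]
  refine (fix5_nodup.filter _).map_on fun a ha b hb hab => ?_
  obtain ⟨hap, -, hac, -⟩ := fix5_spec (List.mem_filter.mp ha).1
  obtain ⟨hbp, -, hbc, -⟩ := fix5_spec (List.mem_filter.mp hb).1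
  rw [← hac, ← hbc]
  exact pmul_congr pone_spec.1 ((permOf_eq_iff hap hbp).mp hab)

theorem sixFix_lengths : (sixFix 7).length = 16 ∧ (sixFix 5).length = 3 := by decide +kernel

theorem sixArrange_smul {x : ℕ} (hx : x = 7 ∨ x = 5) {k : Equiv.Perm GolayPt} (hk : k ∈ M24)
    (σ : Equiv.Perm ↥(k • sixBase x)) : ∃ g ∈ M24, ∀ p : ↥(k • sixBase x), g p = σ p := by
  let e : ↥(sixBase x) ≃ ↥(k • sixBase x) := k.subtypeEquiv fun p => by
    rw [← Equiv.Perm.smul_def, Finset.smul_mem_smul_finset_iff]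
  obtain ⟨g, hg, hgσ⟩ := sixArrange hx ((e.trans σ).trans e.symm)
  refine ⟨k * g * k⁻¹, M24.mul_mem (M24.mul_mem hk hg) (M24.inv_mem hk), fun p => ?_⟩
  have h := hgσ (e.symm p)
  have h1 : (e.symm p).1 = k⁻¹ p.1 := rfl
  rw [h1] at h
  rw [Equiv.Perm.mul_apply, Equiv.Perm.mul_apply, h]
  show k (e.symm (σ (e (e.symm p)))).1 = _
  rw [Equiv.apply_symm_apply]
  exact Equiv.apply_symm_apply k _

theorem card_fix_smul {x : ℕ} (hx : x < 24) {k : Equiv.Perm GolayPt} (hk : k ∈ M24) :
    Nat.card {g : Equiv.Perm GolayPt // g ∈ M24 ∧ ∀ p ∈ k • sixBase x, g p = p} =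
      (sixFix x).length := by
  rw [← card_fix_sixBase hx]
  refine Nat.card_congr
    ⟨fun g => ⟨k⁻¹ * g.1 * k, M24.mul_mem (M24.mul_mem (M24.inv_mem hk) g.2.1) hk, fun p hp => ?_⟩,
     fun g => ⟨k * g.1 * k⁻¹, M24.mul_mem (M24.mul_mem hk g.2.1) (M24.inv_mem hk), fun p hp => ?_⟩,
     fun g => ?_, fun g => ?_⟩
  · rw [Equiv.Perm.mul_apply, Equiv.Perm.mul_apply,
      g.2.2 (k p) (Finset.smul_mem_smul_finset hp)]
    simp
  · obtain ⟨q, hq, rfl⟩ := Finset.mem_smul_finset.mp hp
    simp [Equiv.Perm.smul_def, Equiv.Perm.mul_apply, g.2.2 q hq]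
  · apply Subtype.ext
    show k * (k⁻¹ * g.1 * k) * k⁻¹ = g.1
    group
  · apply Subtype.ext
    show k⁻¹ * (k * g.1 * k⁻¹) * k = g.1
    group

theorem sixBase_octad {x : ℕ} (hx : x = 7 ∨ x = 5) :
    (∃ o ∈ octads, sixBase x ⊆ o) ↔ x = 7 := by
  constructor
  · rintro ⟨o, ho, hsub⟩
    rcases hx with rfl | rfl
    · rfl
    · exfalso
      have h5 : 5 ≤ (o ∩ fin H11.octad0).card := by
        have hs : ([0, 1, 2, 3, 4].map pt).toFinset ⊆ o ∩ fin H11.octad0 := by
          intro q hq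
          rw [List.mem_toFinset, List.mem_map] at hq
          obtain ⟨i, hi, rfl⟩ := hq
          refine Finset.mem_inter.mpr ⟨hsub ?_, ?_⟩
          · rw [sixBase, List.mem_toFinset]
            exact List.mem_map_of_mem (by
              simp only [List.mem_cons, List.not_mem_nil, or_false] at hi ⊢; omega)
          · rw [pt_mem_fin (by simp at hi; omega)]
            simp only [List.mem_cons, List.not_mem_nil, or_false] at hi
            rcases hi with rfl | rfl | rfl | rfl | rfl <;> decide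
        exact le_trans (by decide +kernel) (Finset.card_le_card hs)
      obtain rfl := octad_unique ho H11.fin_octad0_mem h5
      have h' : pt 5 ∈ fin H11.octad0 := hsub (by simp [sixBase])
      rw [pt_mem_fin (by norm_num)] at h'
      exact absurd h' (by decide)
  · rintro rfl
    refine ⟨fin H11.octad0, H11.fin_octad0_mem, fun q hq => ?_⟩
    rw [sixBase, List.mem_toFinset, List.mem_map] at hq
    obtain ⟨i, hi, rfl⟩ := hq
    rw [pt_mem_fin (by simp at hi; omega)]
    simp only [List.mem_cons, List.not_mem_nil, or_false] at hi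
    rcases hi with rfl | rfl | rfl | rfl | rfl | rfl <;> decide

end Cfsg.Agent.H12
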