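import Cfsg.Agent.H12.Centralizers
import Cfsg.Agent.H12.AffineData

/-!
The centraliser of an involution of `M24` with eight fixed points as the centraliser of a
transvection in `SL(5, 2)`, through affine coordinates on the sixteen moved points.
-/

set_option autoImplicit false

namespace Cfsg.Agent.H12

open scoped Pointwise

/-! ### The centraliser at the point 0 -/

/-- Images of 0..4 of a candidate commuting with `rep2A` and fixing 0. -/
noncomputable def tup2A (k : ℕ) : ℕ → ℕ :=
  forceNat (Nat.div k 24) fun a => forceNat (Nat.mod k 24) fun e =>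
    chunkGet [0, 1, a, app rep2A a, e]

/-- Admissible candidates. -/
noncomputable def valid2A (k : ℕ) : Bool :=
  forceNat (Nat.div k 24) fun a => forceNat (Nat.mod k 24) fun e =>
    !(memList a [0, 1] || Nat.beq (app rep2A a) a || memList e [0, 1, a, app rep2A a])

theorem tup2A_ok : scanOK 10 576 valid2A tup2A = true := by decide +kernel

/-- The centraliser of `rep2A` at the point 0. -/
noncomputable def cent2A0 : List ℕ := scanList 576 valid2A tup2A (commTest rep2A)

theorem cent2A0_nodup : (cent2A0.map permOf).Nodup := by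
  refine (scanList_nodup tup2A_ok (key := fun f => 24 * f 2 + f 4) ?_).map_on ?_
  · intro k hk _ f hf
    rw [hf 2 (by norm_num), hf 4 (by norm_num)]
    simp only [tup2A, forceNat_eq]
    show 24 * (k / 24) + k % 24 = k
    omega
  · intro a ha b hb hab
    rw [← scanList_canon ha, ← scanList_canon hb, hab]

theorem rep2A_cycles : app rep2A 0 = 1 ∧ app rep2A 1 = 0 ∧ app rep2A 2 = 3 ∧ app rep2A 3 = 2 := by
  decide +kernel

theorem comm_idx {r : ℕ} (hr : isPerm r = true) {g : Equiv.Perm GolayPt}
    (hc : g * permOf r = permOf r * g) {i : ℕ} (hi : i < 24) :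
    idx (g (pt (app r i))) = app r (idx (g (pt i))) := by
  rw [← permOf_pt hr hi]
  have := DFunLike.congr_fun hc (pt i)
  rw [Equiv.Perm.mul_apply, Equiv.Perm.mul_apply] at this
  rw [this, permOf_apply hr, idx_pt (app_lt hr (idx_lt _))]

theorem code_mem_cent2A0 {g : Equiv.Perm GolayPt} (hg : g ∈ M24)
    (hc : g * permOf rep2A = permOf rep2A * g) (h0 : g (pt 0) = pt 0) : code g ∈ cent2A0 := by
  obtain ⟨hr, -⟩ := rep_ok rep2A (by simp)
  obtain ⟨r0, r1, r2, r3⟩ := rep2A_cycles
  have h1 : idx (g (pt 1)) = 1 := by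
    have := comm_idx hr hc (show 0 < 24 by norm_num)
    rwa [r0, h0, idx_pt (by norm_num), r0] at this
  have h3 : idx (g (pt 3)) = app rep2A (idx (g (pt 2))) := by
    have := comm_idx hr hc (show 2 < 24 by norm_num)
    rwa [r2] at this
  set a := idx (g (pt 2)) with ha
  set e := idx (g (pt 4)) with he
  have hal : a < 24 := idx_lt _
  have hel : e < 24 := idx_lt _
  have hd : Nat.div (24 * a + e) 24 = a := show (24 * a + e) / 24 = a by omega
  have hm : Nat.mod (24 * a + e) 24 = e := show (24 * a + e) % 24 = e by omega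
  refine scanList_complete tup2A_ok hg (k := 24 * a + e) (by omega) ?_ ?_
    (fun f hf => commTest_of_commute hr hc hf)
  · have hne : ∀ i j, i < 24 → j < 24 → i ≠ j → idx (g (pt i)) ≠ idx (g (pt j)) :=
      fun i j hi hj hij e => hij (pt_inj hi hj (g.injective (idx_injective e)))
    have e0 : idx (g (pt 0)) = 0 := by rw [h0, idx_pt (by norm_num)]
    have n20 := hne 2 0 (by norm_num) (by norm_num) (by norm_num)
    have n21 := hne 2 1 (by norm_num) (by norm_num) (by norm_num)
    have n32 := hne 3 2 (by norm_num) (by norm_num) (by norm_num)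
    have n40 := hne 4 0 (by norm_num) (by norm_num) (by norm_num)
    have n41 := hne 4 1 (by norm_num) (by norm_num) (by norm_num)
    have n42 := hne 4 2 (by norm_num) (by norm_num) (by norm_num)
    have n43 := hne 4 3 (by norm_num) (by norm_num) (by norm_num)
    simp only [valid2A, forceNat_eq, hd, hm, Bool.not_eq_true', Bool.or_eq_false_iff]
    refine ⟨⟨?_, ?_⟩, ?_⟩ <;> rw [← Bool.not_eq_true] <;> intro hh
    · have := memList_spec hh
      simp only [List.mem_cons, List.not_mem_nil, or_false] at this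
      omega
    · rw [Nat.beq_eq] at hh
      omega
    · have := memList_spec hh
      simp only [List.mem_cons, List.not_mem_nil, or_false] at this
      omega
  · intro i hi
    simp only [tup2A, forceNat_eq, hd, hm]
    rcases i with - | - | - | - | - | i
    · rw [h0, idx_pt (by norm_num)]; rfl
    · rw [h1]; rfl
    · rfl
    · rw [h3]; rfl
    · rfl
    · omega

/-! ### Affine coordinates -/

/-- Coordinates of the image of the point with coordinates `i`. -/
noncomputable def affImg (f : ℕ → ℕ) (i : ℕ) : ℕ := app affIdx (f (app affPts i))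

/-- The linear map with prescribed values at 1, 2, 4, 8. -/
def linExt (v1 v2 v4 v8 i : ℕ) : ℕ :=
  (cond (i.testBit 0) v1 0) ^^^ (cond (i.testBit 1) v2 0) ^^^ (cond (i.testBit 2) v4 0) ^^^
    (cond (i.testBit 3) v8 0)

theorem linExt_xor (v1 v2 v4 v8 i j : ℕ) :
    linExt v1 v2 v4 v8 (i ^^^ j) = linExt v1 v2 v4 v8 i ^^^ linExt v1 v2 v4 v8 j := by
  apply Nat.eq_of_testBit_eq
  intro k
  simp only [linExt, Nat.testBit_xor]
  cases i.testBit 0 <;> cases i.testBit 1 <;> cases i.testBit 2 <;> cases i.testBit 3 <;>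
    cases j.testBit 0 <;> cases j.testBit 1 <;> cases j.testBit 2 <;> cases j.testBit 3 <;>
    simp <;>
    cases v1.testBit k <;> cases v2.testBit k <;> cases v4.testBit k <;> cases v8.testBit k <;> rfl

/-- The kernel's test for an affine action on the sixteen points. -/
noncomputable def affTest (f : ℕ → ℕ) : Bool :=
  forceNat (affImg f 0) fun s0 =>
  forceNat (Nat.xor (affImg f 1) s0) fun v1 => forceNat (Nat.xor (affImg f 2) s0) fun v2 =>
  forceNat (Nat.xor (affImg f 4) s0) fun v4 => forceNat (Nat.xor (affImg f 8) s0) fun v8 =>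
    Nat.beq v1 1 && allBelow 4 16 fun i => forceNat (affImg f i) fun s =>
      Nat.blt s 16 && Nat.beq (Nat.xor s s0) (linExt v1 v2 v4 v8 i) &&
        Nat.beq (app affPts s) (f (app affPts i))

/-- The coordinates of the image of the point with coordinates `i`. -/
noncomputable def affPerm (g : Equiv.Perm GolayPt) (i : ℕ) : ℕ :=
  app affIdx (idx (g (pt (app affPts i))))

/-- The elements acting affinely on the moved points and commuting with the translation. -/
def IsAff (g : Equiv.Perm GolayPt) : Prop :=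
  ∀ i < 16, (affPerm g i < 16 ∧ g (pt (app affPts i)) = pt (app affPts (affPerm g i))) ∧
    affPerm g (i ^^^ 1) = affPerm g i ^^^ 1 ∧
    ∀ j < 16, affPerm g (i ^^^ j) = affPerm g i ^^^ affPerm g j ^^^ affPerm g 0

theorem affPts_check : (allBelow 4 16 fun i => Nat.blt (app affPts i) 24 &&
    Nat.beq (app affIdx (app affPts i)) i &&
    Nat.beq (app rep2A (app affPts i)) (app affPts (Nat.xor i 1))) = true := by
  decide +kernel

theorem affPts_spec {i : ℕ} (hi : i < 16) : app affPts i < 24 ∧ app affIdx (app affPts i) = i ∧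
    app rep2A (app affPts i) = app affPts (i ^^^ 1) := by
  have h := allBelow_spec affPts_check hi
  simp only [Bool.and_eq_true, Nat.beq_eq, Nat.blt_eq] at h
  exact ⟨h.1.1, h.1.2, h.2⟩

theorem affPts_zero : app affPts 0 = 0 := by decide +kernel

theorem isAff_of_test {g : Equiv.Perm GolayPt} {f : ℕ → ℕ}
    (hf : ∀ i < 24, f i = idx (g (pt i))) (h : affTest f = true) : IsAff g := by
  simp only [affTest, forceNat_eq, Bool.and_eq_true, Nat.beq_eq] at h
  obtain ⟨hv1, hall⟩ := h
  have himg : ∀ i < 16, affImg f i = affPerm g i := by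
    intro i hi
    rw [affImg, affPerm, hf _ (affPts_spec hi).1]
  have key : ∀ i < 16, affImg f i < 16 ∧
      affImg f i ^^^ affImg f 0 = linExt (affImg f 1 ^^^ affImg f 0) (affImg f 2 ^^^ affImg f 0)
        (affImg f 4 ^^^ affImg f 0) (affImg f 8 ^^^ affImg f 0) i ∧
      app affPts (affImg f i) = f (app affPts i) := by
    intro i hi
    have := allBelow_spec hall hi
    simp only [Bool.and_eq_true, Nat.beq_eq, Nat.blt_eq] at this
    exact ⟨this.1.1, this.1.2, this.2⟩
  have hlaw : ∀ i < 16, ∀ j < 16, affPerm g (i ^^^ j) =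
      affPerm g i ^^^ affPerm g j ^^^ affPerm g 0 := by
    intro i hi j hj
    have hij : i ^^^ j < 16 := Nat.xor_lt_two_pow (n := 4) hi hj
    rw [← himg _ hij, ← himg i hi, ← himg j hj, ← himg 0 (by norm_num)]
    have e1 := (key _ hij).2.1
    rw [linExt_xor, ← (key i hi).2.1, ← (key j hj).2.1] at e1
    have e2 := congrArg (· ^^^ affImg f 0) e1
    simp only [Nat.xor_assoc, Nat.xor_self, Nat.xor_zero] at e2
    rw [e2, ← Nat.xor_assoc, Nat.xor_assoc (affImg f i), Nat.xor_comm (affImg f 0),
      ← Nat.xor_assoc]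
  intro i hi
  refine ⟨⟨himg i hi ▸ (key i hi).1, ?_⟩, ?_, hlaw i hi⟩
  · rw [← himg i hi, (key i hi).2.2, hf _ (affPts_spec hi).1, pt_idx]
  · have h1 : affImg f 1 ^^^ affImg f 0 = 1 := hv1
    rw [himg 1 (by norm_num), himg 0 (by norm_num)] at h1
    rw [hlaw i hi 1 (by norm_num), Nat.xor_assoc, h1]

theorem affPerm_mul {g h : Equiv.Perm GolayPt} (hh : IsAff h) {i : ℕ} (hi : i < 16) :
    affPerm (g * h) i = affPerm g (affPerm h i) := by
  rw [affPerm, Equiv.Perm.mul_apply, (hh i hi).1.2]
  rfl

theorem IsAff.mul {g h : Equiv.Perm GolayPt} (hg : IsAff g) (hh : IsAff h) : IsAff (g * h) := by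
  intro i hi
  have hl : ∀ j < 16, affPerm h j < 16 := fun j hj => (hh j hj).1.1
  have e : ∀ j < 16, affPerm (g * h) j = affPerm g (affPerm h j) := fun j hj => affPerm_mul hh hj
  refine ⟨⟨by rw [e i hi]; exact (hg _ (hl i hi)).1.1, ?_⟩, ?_, ?_⟩
  · rw [e i hi, Equiv.Perm.mul_apply, (hh i hi).1.2, (hg _ (hl i hi)).1.2]
  · rw [e _ (Nat.xor_lt_two_pow (n := 4) hi (by norm_num)), (hh i hi).2.1,
      (hg _ (hl i hi)).2.1, e i hi]
  · intro j hj
    rw [e _ (Nat.xor_lt_two_pow (n := 4) hi hj), (hh i hi).2.2 j hj, e i hi, e j hj,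
      e 0 (show 0 < 16 by norm_num)]
    rw [(hg _ (Nat.xor_lt_two_pow (n := 4) (hl i hi) (hl j hj))).2.2 _ (hl 0 (by norm_num)),
      (hg _ (hl i hi)).2.2 _ (hl j hj)]
    apply Nat.eq_of_testBit_eq
    intro k
    simp only [Nat.testBit_xor]
    cases (affPerm g (affPerm h i)).testBit k <;> cases (affPerm g (affPerm h j)).testBit k <;>
      cases (affPerm g (affPerm h 0)).testBit k <;> cases (affPerm g 0).testBit k <;> rfl

theorem affTrans_check : (allBelow 4 16 fun i => forceNat (chunkGet affTrans i) fun t =>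
    fixesCode t && Nat.beq (app t 0) (app affPts i) && commTest rep2A (app t) && affTest (app t))
      = true := by
  decide +kernel

theorem cent2A0_check : (allList cent2A0 (fun c => affTest (app c) &&
      (!(allBelow 4 16 fun i => Nat.beq (affImg (app c) i) i) || Nat.beq c pone)) &&
    Nat.beq cent2A0.length 1344) = true := by
  decide +kernel

theorem trans_spec {i : ℕ} (hi : i < 16) : ∃ t ∈ M24, t * permOf rep2A = permOf rep2A * t ∧
    t (pt 0) = pt (app affPts i) ∧ IsAff t := by
  have h := allBelow_spec affTrans_check hi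
  simp only [forceNat_eq, Bool.and_eq_true, Nat.beq_eq] at h
  obtain ⟨⟨⟨hf, h0⟩, hc⟩, ha⟩ := h
  have hp : isPerm (chunkGet affTrans i) = true := by
    rw [fixesCode, Bool.and_eq_true] at hf
    exact hf.1
  refine ⟨_, permOf_mem_M24 hf, commute_of_commTest (rep_ok _ (by simp)).1 hp (fun _ _ => rfl) hc,
    by rw [permOf_pt hp (by norm_num), h0], isAff_of_test (fun j hj => ?_) ha⟩
  rw [permOf_pt hp hj, idx_pt (app_lt hp hj)]

theorem moved_check : (allBelow 5 24 fun x =>
    Nat.beq (app rep2A x) x || allList [x] fun x => Nat.blt (app affIdx x) 16 &&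
      Nat.beq (app affPts (app affIdx x)) x) = true := by
  decide +kernel

theorem cent_isAff {g : Equiv.Perm GolayPt} (hg : g ∈ M24)
    (hc : g * permOf rep2A = permOf rep2A * g) : IsAff g := by
  obtain ⟨hr, -⟩ := rep_ok rep2A (by simp)
  have h := allBelow_spec moved_check (idx_lt (g (pt 0)))
  rw [Bool.or_eq_true, Nat.beq_eq] at h
  rcases h with h | h
  · exfalso
    have := comm_idx hr hc (show 0 < 24 by norm_num)
    rw [rep2A_cycles.1, h] at this
    exact absurd (pt_inj (by norm_num) (by norm_num) (g.injective (idx_injective this)))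
      (by norm_num)
  · have h' := allList_spec h _ (List.mem_singleton_self _)
    simp only [Bool.and_eq_true, Nat.blt_eq, Nat.beq_eq] at h'
    obtain ⟨t, ht, htc, ht0, hta⟩ := trans_spec h'.1
    rw [h'.2, pt_idx] at ht0
    have hx : code (t⁻¹ * g) ∈ cent2A0 := by
      refine code_mem_cent2A0 (M24.mul_mem (M24.inv_mem ht) hg) ?_ ?_
      · exact ((Commute.inv_left (show Commute t (permOf rep2A) from htc)).mul_left hc).eq
      · rw [Equiv.Perm.mul_apply, ← ht0, Equiv.Perm.inv_eq_iff_eq]
    have hck := cent2A0_check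
    rw [Bool.and_eq_true] at hck
    have hh := allList_spec hck.1 _ hx
    rw [Bool.and_eq_true] at hh
    have := hta.mul (isAff_of_test (fun j hj => app_code _ hj) hh.1)
    rwa [mul_inv_cancel_left] at this

theorem cent_eq_one {g : Equiv.Perm GolayPt} (hg : g ∈ M24)
    (hc : g * permOf rep2A = permOf rep2A * g) (h : ∀ i < 16, affPerm g i = i) : g = 1 := by
  have h0 : g (pt 0) = pt 0 := by
    have := ((cent_isAff hg hc) 0 (by norm_num)).1.2
    rwa [h 0 (by norm_num), affPts_zero] at this
  have hx := code_mem_cent2A0 hg hc h0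
  have hck := cent2A0_check
  rw [Bool.and_eq_true] at hck
  have hh := allList_spec hck.1 _ hx
  rw [Bool.and_eq_true, Bool.or_eq_true, Bool.not_eq_true', ← Bool.not_eq_true, Nat.beq_eq] at hh
  rcases hh.2 with hh | hh
  · exfalso
    apply hh
    rw [allBelow, Bool.and_eq_true, Nat.ble_eq]
    refine ⟨by norm_num, ?_⟩
    have hall : ∀ i < 16, Nat.beq (affImg (app (code g)) i) i = true := by
      intro i hi
      rw [Nat.beq_eq, affImg, app_code g (affPts_spec hi).1]
      exact h i hi
    have hseg : ∀ d base, allSeg (fun i => Nat.beq (affImg (app (code g)) i) i) d base 16 = true := by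
      intro d
      induction d with
      | zero =>
        intro base
        show Bool.rec true _ (Nat.blt base 16) = true
        cases hb : Nat.blt base 16
        · rfl
        · exact hall base (Nat.blt_eq.to_iff.mp hb)
      | succ d ih =>
        intro base
        show Bool.rec true (Bool.rec false (allSeg _ d (base + 2 ^ d) 16) (allSeg _ d base 16))
          (Nat.blt base 16) = true
        cases Nat.blt base 16
        · rfl
        · show Bool.rec false _ _ = true
          rw [ih base]
          exact ih _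
    exact hseg 4 0
  · rw [← permOf_code g, hh, pone_spec.2]

/-! ### The matrices -/

/-- The affine point with coordinates `i` in the five-dimensional space. -/
def affVec (i : ℕ) : Fin 5 → ZMod 2 :=
  fun r => cond (match r.val with
    | 0 => i.testBit 0 | 1 => true | 2 => i.testBit 1 | 3 => i.testBit 2 | _ => i.testBit 3) 1 0

/-- The matrix of an affine map given by the images of the five basic points. -/
def affMat (s : ℕ → ℕ) : Matrix (Fin 5) (Fin 5) (ZMod 2) :=
  Matrix.of fun r c => match c.val with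
    | 0 => affVec (s 1) r + affVec (s 0) r
    | 1 => affVec (s 0) r
    | 2 => affVec (s 2) r + affVec (s 0) r
    | 3 => affVec (s 4) r + affVec (s 0) r
    | _ => affVec (s 8) r + affVec (s 0) r

theorem affVec_xor : ∀ a < 16, ∀ b < 16, ∀ c < 16, ∀ r,
    affVec (a ^^^ b ^^^ c) r = affVec a r + affVec b r + affVec c r := by
  decide +kernel

theorem affVec_inj : ∀ a < 16, ∀ b < 16, (∀ r, affVec a r = affVec b r) → a = b := by
  decide +kernel

/-- The five images determine an affine map on the sixteen points. -/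
theorem affMat_mulVec {s : ℕ → ℕ} (hlt : ∀ i < 16, s i < 16)
    (hlaw : ∀ i < 16, ∀ j < 16, s (i ^^^ j) = s i ^^^ s j ^^^ s 0) :
    ∀ i < 16, Matrix.mulVec (affMat s) (affVec i) = affVec (s i) := by
  have step : ∀ i < 16, ∀ j < 16,
      Matrix.mulVec (affMat s) (affVec i) = affVec (s i) →
      Matrix.mulVec (affMat s) (affVec j) = affVec (s j) →
      Matrix.mulVec (affMat s) (affVec 0) = affVec (s 0) →
      Matrix.mulVec (affMat s) (affVec (i ^^^ j)) = affVec (s (i ^^^ j)) := by
    intro i hi j hj h1 h2 h3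
    have e : affVec (i ^^^ j) = affVec i + affVec j + affVec 0 := by
      funext r
      have := affVec_xor i hi j hj 0 (by norm_num) r
      rwa [Nat.xor_zero] at this
    rw [e, Matrix.mulVec_add, Matrix.mulVec_add, h1, h2, h3, hlaw i hi j hj]
    funext r
    exact (affVec_xor _ (hlt i hi) _ (hlt j hj) _ (hlt 0 (by norm_num)) r).symm
  have h2 : ∀ x : ZMod 2, x + x = 0 := by decide
  have base : ∀ i ∈ [0, 1, 2, 4, 8], Matrix.mulVec (affMat s) (affVec i) = affVec (s i) := by
    intro i hi
    simp only [List.mem_cons, List.not_mem_nil, or_false] at hi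
    funext r
    rcases hi with rfl | rfl | rfl | rfl | rfl <;>
      simp [Matrix.mulVec, dotProduct, Fin.sum_univ_five, affMat, affVec, Nat.testBit,
        add_assoc, h2] <;>
      (rw [add_comm]; simp [add_assoc, h2])
  intro i hi
  have b0 := base 0 (by simp)
  have b1 := base 1 (by simp)
  have b2 := base 2 (by simp)
  have b4 := base 4 (by simp)
  have b8 := base 8 (by simp)
  interval_cases i
  · exact b0
  · exact b1
  · exact b2
  · exact step 1 (by norm_num) 2 (by norm_num) b1 b2 b0
  · exact b4
  · exact step 1 (by norm_num) 4 (by norm_num) b1 b4 b0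
  · exact step 2 (by norm_num) 4 (by norm_num) b2 b4 b0
  · exact step 1 (by norm_num) 6 (by norm_num) b1 (step 2 (by norm_num) 4 (by norm_num) b2 b4 b0) b0
  · exact b8
  · exact step 1 (by norm_num) 8 (by norm_num) b1 b8 b0
  · exact step 2 (by norm_num) 8 (by norm_num) b2 b8 b0
  · exact step 3 (by norm_num) 8 (by norm_num) (step 1 (by norm_num) 2 (by norm_num) b1 b2 b0) b8 b0
  · exact step 4 (by norm_num) 8 (by norm_num) b4 b8 b0
  · exact step 5 (by norm_num) 8 (by norm_num) (step 1 (by norm_num) 4 (by norm_num) b1 b4 b0) b8 b0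
  · exact step 6 (by norm_num) 8 (by norm_num) (step 2 (by norm_num) 4 (by norm_num) b2 b4 b0) b8 b0
  · exact step 7 (by norm_num) 8 (by norm_num)
      (step 1 (by norm_num) 6 (by norm_num) b1 (step 2 (by norm_num) 4 (by norm_num) b2 b4 b0) b0)
      b8 b0

/-- Matrices are determined by their values on the affine points. -/
theorem mat_ext_aff {M N : Matrix (Fin 5) (Fin 5) (ZMod 2)}
    (h : ∀ i < 16, Matrix.mulVec M (affVec i) = Matrix.mulVec N (affVec i)) : M = N := by
  apply Matrix.ext
  intro r c
  have key : ∀ c : Fin 5, Pi.single c (1 : ZMod 2) = affVec 0 ∨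
      ∃ i < 16, Pi.single c (1 : ZMod 2) = affVec i + affVec 0 := by
    decide +kernel
  have e : Matrix.mulVec M (Pi.single c 1) = Matrix.mulVec N (Pi.single c 1) := by
    rcases key c with hc | ⟨i, hi, hc⟩
    · rw [hc, h 0 (by norm_num)]
    · rw [hc, Matrix.mulVec_add, Matrix.mulVec_add, h i hi, h 0 (by norm_num)]
  rw [Matrix.mulVec_single_one, Matrix.mulVec_single_one] at e
  exact congrFun e r

theorem transvection_affVec : ∀ i < 16,
    Matrix.mulVec (Matrix.transvection (0 : Fin 5) 1 (1 : ZMod 2)) (affVec i) = affVec (i ^^^ 1) := by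
  intro i hi
  funext r
  revert i r
  decide +kernel

/-- The matrix of a member of the centraliser. -/
noncomputable def centMat (g : Equiv.Perm GolayPt) : Matrix (Fin 5) (Fin 5) (ZMod 2) :=
  affMat (affPerm g)

theorem centMat_mulVec {g : Equiv.Perm GolayPt} (hg : IsAff g) {i : ℕ} (hi : i < 16) :
    Matrix.mulVec (centMat g) (affVec i) = affVec (affPerm g i) :=
  affMat_mulVec (fun j hj => (hg j hj).1.1) (fun a ha b hb => (hg a ha).2.2 b hb) i hi

theorem isAff_one : IsAff 1 := cent_isAff M24.one_mem (by rw [one_mul, mul_one])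

theorem centMat_mul {g h : Equiv.Perm GolayPt} (hg : IsAff g) (hh : IsAff h) :
    centMat (g * h) = centMat g * centMat h := by
  refine mat_ext_aff fun i hi => ?_
  rw [← Matrix.mulVec_mulVec, centMat_mulVec hh hi, centMat_mulVec hg (hh i hi).1.1,
    centMat_mulVec (hg.mul hh) hi, affPerm_mul hh hi]

theorem centMat_one : centMat 1 = 1 := by
  refine mat_ext_aff fun i hi => ?_
  rw [centMat_mulVec isAff_one hi, Matrix.one_mulVec, affPerm, Equiv.Perm.one_apply,
    idx_pt (affPts_spec hi).1, (affPts_spec hi).2.1]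

theorem centMat_comm {g : Equiv.Perm GolayPt} (hg : IsAff g) :
    centMat g * Matrix.transvection 0 1 1 = Matrix.transvection 0 1 1 * centMat g := by
  refine mat_ext_aff fun i hi => ?_
  have hi' : i ^^^ 1 < 16 := Nat.xor_lt_two_pow (n := 4) hi (by norm_num)
  rw [← Matrix.mulVec_mulVec, ← Matrix.mulVec_mulVec, transvection_affVec i hi,
    centMat_mulVec hg hi', centMat_mulVec hg hi, transvection_affVec _ (hg i hi).1.1,
    (hg i hi).2.1]

theorem centMat_det {g : Equiv.Perm GolayPt} (hg : g ∈ M24)
    (hc : g * permOf rep2A = permOf rep2A * g) : (centMat g).det = 1 := by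
  have h := congrArg Matrix.det (centMat_mul (cent_isAff hg hc) (cent_isAff (M24.inv_mem hg)
    ((Commute.inv_left (show Commute g (permOf rep2A) from hc)).eq)))
  rw [mul_inv_cancel, centMat_one, Matrix.det_one, Matrix.det_mul] at h
  have key : ∀ a b : ZMod 2, 1 = a * b → a = 1 := by decide
  exact key _ _ h

/-! ### Counting -/

theorem affPerm_check_bits : ∀ c : Fin 5, ∀ r : Fin 5,
    (Matrix.transvection (0 : Fin 5) 1 (1 : ZMod 2)) r c =
      (if r = c then 1 else 0) + (if r = 0 ∧ c = 1 then 1 else 0) := by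
  decide +kernel

/-- The invertible three-by-three blocks. -/
theorem card_blocks :
    Nat.card {B : Matrix (Fin 3) (Fin 3) (ZMod 2) //
      ∀ v : Fin 3 → ZMod 2, Matrix.mulVec B v = 0 → v = 0} = 168 := by
  rw [Nat.card_eq_fintype_card]
  decide +kernel

theorem card_centralizer_transvection (s : Matrix.SpecialLinearGroup (Fin 5) (ZMod 2))
    (hs : (s : Matrix (Fin 5) (Fin 5) (ZMod 2)) = Matrix.transvection 0 1 1) :
    Nat.card ↥(Subgroup.centralizer ({s} : Set (Matrix.SpecialLinearGroup (Fin 5) (ZMod 2))))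
      ≤ 21504 := by
  classical
  set H := Subgroup.centralizer ({s} : Set (Matrix.SpecialLinearGroup (Fin 5) (ZMod 2)))
  have shape : ∀ M : H, (∀ c, c ≠ 1 → M.1.1 1 c = 0) ∧ (∀ r, r ≠ 0 → M.1.1 r 0 = 0) ∧
      M.1.1 0 0 = 1 ∧ M.1.1 1 1 = 1 := by
    intro M
    have hM := Subgroup.mem_centralizer_singleton_iff.mp M.2
    have h : (M.1 : Matrix (Fin 5) (Fin 5) (ZMod 2)) * (s : Matrix (Fin 5) (Fin 5) (ZMod 2)) =
        (s : Matrix (Fin 5) (Fin 5) (ZMod 2)) * (M.1 : Matrix (Fin 5) (Fin 5) (ZMod 2)) := by
      rw [← Matrix.SpecialLinearGroup.coe_mul, hM, Matrix.SpecialLinearGroup.coe_mul]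
    rw [hs] at h
    have h1 : ∀ c, c ≠ 1 → M.1.1 1 c = 0 := by
      intro c hc
      have := congrFun (congrFun h 0) c
      simp [Matrix.mul_apply, Fin.sum_univ_five, affPerm_check_bits] at this
      fin_cases c <;> simp_all
    have h2 : ∀ r, r ≠ 0 → M.1.1 r 0 = 0 := by
      intro r hr
      have := congrFun (congrFun h r) 1
      simp [Matrix.mul_apply, Fin.sum_univ_five, affPerm_check_bits] at this
      fin_cases r <;> simp_all
    have h00 : M.1.1 0 0 = 1 := by
      rcases (show ∀ x : ZMod 2, x = 0 ∨ x = 1 by decide) (M.1.1 0 0) with h0 | h0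
      · exfalso
        have hd := M.1.2
        rw [Matrix.det_eq_zero_of_column_eq_zero 0 fun r => by
          by_cases hr : r = 0
          · rw [hr]; exact h0
          · exact h2 r hr] at hd
        exact zero_ne_one hd
      · exact h0
    refine ⟨h1, h2, h00, ?_⟩
    have := congrFun (congrFun h 0) 1
    simp [Matrix.mul_apply, Fin.sum_univ_five, affPerm_check_bits, h00] at this
    have key : ∀ a b : ZMod 2, 1 + a = a + b → b = 1 := by decide
    exact key _ _ this
  let F : H → (Fin 4 → ZMod 2) × (Fin 3 → ZMod 2) ×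
      {B : Matrix (Fin 3) (Fin 3) (ZMod 2) // ∀ v : Fin 3 → ZMod 2, Matrix.mulVec B v = 0 → v = 0} :=
    fun M => (fun j => M.1.1 0 j.succ, fun j => M.1.1 j.succ.succ 1,
      ⟨Matrix.of fun a b => M.1.1 a.succ.succ b.succ.succ, fun v hv => by
        obtain ⟨h1, h2, h00, -⟩ := shape M
        let α : ZMod 2 := M.1.1 0 2 * v 0 + M.1.1 0 3 * v 1 + M.1.1 0 4 * v 2
        let w : Fin 5 → ZMod 2 := ![α, 0, v 0, v 1, v 2]
        have hw : Matrix.mulVec M.1.1 w = 0 := by
          funext r
          have hrow : ∀ a : Fin 3, M.1.1 a.succ.succ 2 * v 0 + M.1.1 a.succ.succ 3 * v 1 +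
              M.1.1 a.succ.succ 4 * v 2 = 0 := by
            intro a
            have := congrFun hv a
            simpa [Matrix.mulVec, dotProduct, Fin.sum_univ_three] using this
          fin_cases r
          · simp [Matrix.mulVec, dotProduct, Fin.sum_univ_five, w, α, h00]
            have h2' : ∀ a b c : ZMod 2, a + b + c + a + b + c = 0 := by decide
            exact h2' _ _ _
          · simp [Matrix.mulVec, dotProduct, Fin.sum_univ_five, w, h1]
          · simpa [Matrix.mulVec, dotProduct, Fin.sum_univ_five, w, h2] using hrow 0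
          · simpa [Matrix.mulVec, dotProduct, Fin.sum_univ_five, w, h2] using hrow 1
          · simpa [Matrix.mulVec, dotProduct, Fin.sum_univ_five, w, h2] using hrow 2
        have hz : w = 0 := by
          by_contra hne
          exact one_ne_zero (M.1.2.symm.trans (Matrix.exists_mulVec_eq_zero_iff.mp ⟨w, hne, hw⟩))
        funext a
        fin_cases a
        · exact congrFun hz 2
        · exact congrFun hz 3
        · exact congrFun hz 4⟩)
  have hinj : Function.Injective F := by
    intro M N he
    simp only [F, Prod.mk.injEq, Subtype.mk.injEq] at he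
    obtain ⟨hr, hc, hb⟩ := he
    obtain ⟨a1, a2, a00, a11⟩ := shape M
    obtain ⟨b1, b2, b00, b11⟩ := shape N
    apply Subtype.ext
    apply Subtype.ext
    apply Matrix.ext
    intro r c
    rcases Fin.eq_zero_or_eq_succ r with rfl | ⟨r', rfl⟩
    · rcases Fin.eq_zero_or_eq_succ c with rfl | ⟨c', rfl⟩
      · rw [a00, b00]
      · exact congrFun hr c'
    · rcases Fin.eq_zero_or_eq_succ c with rfl | ⟨c', rfl⟩
      · rw [a2 _ (Fin.succ_ne_zero r'), b2 _ (Fin.succ_ne_zero r')]
      · rcases Fin.eq_zero_or_eq_succ r' with rfl | ⟨a, rfl⟩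
        · by_cases h : c'.succ = (1 : Fin 5)
          · rw [h]; exact a11.trans b11.symm
          · exact (a1 _ h).trans (b1 _ h).symm
        · rcases Fin.eq_zero_or_eq_succ c' with rfl | ⟨b, rfl⟩
          · exact congrFun hc a
          · exact congrFun (congrFun hb a) b
  have := Nat.card_le_card_of_injective F hinj
  rw [Nat.card_prod, Nat.card_prod, card_blocks] at this
  simpa using this

theorem cent2A_card_ge (z : M24) (hz : (z : Equiv.Perm GolayPt) = permOf rep2A) :
    21504 ≤ Nat.card ↥(Subgroup.centralizer ({z} : Set M24)) := by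
  classical
  have hck := cent2A0_check
  rw [Bool.and_eq_true, Nat.beq_eq] at hck
  have key : ∀ g : Equiv.Perm GolayPt, g ∈ M24 → g * permOf rep2A = permOf rep2A * g →
      ∃ c : ↥(Subgroup.centralizer ({z} : Set M24)), ((c : M24) : Equiv.Perm GolayPt) = g := by
    intro g hg hc
    refine ⟨⟨⟨g, hg⟩, Subgroup.mem_centralizer_singleton_iff.mpr ?_⟩, rfl⟩
    apply Subtype.ext
    simpa [hz] using hc
  obtain ⟨hr, -⟩ := rep_ok rep2A (by simp)
  have hx : ∀ x ∈ (cent2A0.map permOf).toFinset,
      x ∈ M24 ∧ x * permOf rep2A = permOf rep2A * x ∧ x (pt 0) = pt 0 := by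
    intro x hx
    rw [List.mem_toFinset, List.mem_map] at hx
    obtain ⟨c, hc, rfl⟩ := hx
    obtain ⟨⟨hcp, hcm⟩, k, -, -, himg, f, hf, ht⟩ := scanList_sound tup2A_ok hc
    refine ⟨hcm, commute_of_commTest hr hcp hf ht, ?_⟩
    rw [permOf_fixed_iff hcp (by norm_num), himg 0 (by norm_num)]
    simp only [tup2A, forceNat_eq]
    rfl
  choose t ht1 ht2 ht3 _ using fun i : Fin 16 => trans_spec i.2
  choose c hc using fun p : Fin 16 × ↥((cent2A0.map permOf).toFinset) =>
    key (t p.1 * p.2.1) (M24.mul_mem (ht1 p.1) (hx _ p.2.2).1)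
      ((show Commute (t p.1) (permOf rep2A) from ht2 p.1).mul_left (hx _ p.2.2).2.1).eq
  have hinj : Function.Injective c := by
    intro p q he
    have e : t p.1 * p.2.1 = t q.1 * q.2.1 := by rw [← hc p, he, hc q]
    have e0 := DFunLike.congr_fun e (pt 0)
    rw [Equiv.Perm.mul_apply, Equiv.Perm.mul_apply, (hx _ p.2.2).2.2, (hx _ q.2.2).2.2,
      ht3, ht3] at e0
    have e1 : p.1 = q.1 := by
      apply Fin.ext
      rw [← (affPts_spec p.1.2).2.1,
        pt_inj (affPts_spec p.1.2).1 (affPts_spec q.1.2).1 e0, (affPts_spec q.1.2).2.1]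
    rw [e1] at e
    exact Prod.ext e1 (Subtype.ext (mul_left_cancel e))
  have := Nat.card_le_card_of_injective c hinj
  rw [Nat.card_prod, Nat.card_eq_fintype_card (α := ↥((cent2A0.map permOf).toFinset)),
    Fintype.card_coe, List.toFinset_card_of_nodup cent2A0_nodup, List.length_map, hck.2,
    Nat.card_fin] at this
  exact this

theorem centralizer_transvection_iso (s : Matrix.SpecialLinearGroup (Fin 5) (ZMod 2))
    (hs : (s : Matrix (Fin 5) (Fin 5) (ZMod 2)) = Matrix.transvection 0 1 1) :
    ∃ z : M24, orderOf z = 2 ∧ Nonempty (↥(Subgroup.centralizer ({z} : Set M24)) ≃*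
      ↥(Subgroup.centralizer ({s} : Set (Matrix.SpecialLinearGroup (Fin 5) (ZMod 2))))) := by
  obtain ⟨hr, hrm⟩ := rep_ok rep2A (by simp)
  let z : M24 := ⟨permOf rep2A, hrm⟩
  refine ⟨z, by rw [← Subgroup.orderOf_coe]; exact rep_order.1, ?_⟩
  have hcomm : ∀ g : ↥(Subgroup.centralizer ({z} : Set M24)),
      ((g : M24) : Equiv.Perm GolayPt) * permOf rep2A =
        permOf rep2A * ((g : M24) : Equiv.Perm GolayPt) :=
    fun g => congrArg Subtype.val (Subgroup.mem_centralizer_singleton_iff.mp g.2)
  have haff := fun g : ↥(Subgroup.centralizer ({z} : Set M24)) => cent_isAff g.1.2 (hcomm g)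
  let φ : ↥(Subgroup.centralizer ({z} : Set M24)) →*
      ↥(Subgroup.centralizer ({s} : Set (Matrix.SpecialLinearGroup (Fin 5) (ZMod 2)))) :=
    MonoidHom.mk' (fun g => ⟨⟨centMat g.1.1, centMat_det g.1.2 (hcomm g)⟩,
      Subgroup.mem_centralizer_singleton_iff.mpr (Subtype.ext (by
        show centMat g.1.1 * (s : Matrix (Fin 5) (Fin 5) (ZMod 2)) =
          (s : Matrix (Fin 5) (Fin 5) (ZMod 2)) * centMat g.1.1
        rw [hs]
        exact centMat_comm (haff g)))⟩)
      (fun g h => Subtype.ext (Subtype.ext (centMat_mul (haff g) (haff h))))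
  have hinj : Function.Injective φ := by
    rw [injective_iff_map_eq_one]
    intro g hg
    have hM : centMat g.1.1 = 1 := congrArg (fun x => x.1.1) hg
    have h1 : ((g : M24) : Equiv.Perm GolayPt) = 1 := by
      refine cent_eq_one g.1.2 (hcomm g) fun i hi => ?_
      have h := centMat_mulVec (haff g) hi
      rw [hM, Matrix.one_mulVec] at h
      exact (affVec_inj i hi _ (haff g i hi).1.1 (congrFun h)).symm
    exact Subtype.ext (Subtype.ext h1)
  have hle := Nat.card_le_card_of_injective φ hinj
  have h1 := card_centralizer_transvection s hs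
  have h2 := cent2A_card_ge z rfl
  exact ⟨MulEquiv.ofBijective φ
    ((Nat.bijective_iff_injective_and_card φ).mpr ⟨hinj, by omega⟩)⟩

end Cfsg.Agent.H12
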